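import Cfsg.Agent.Linear.Transvection
import Cfsg.Prelude.Def_ChevG2

/-!
The long root subgroup `SL₃ → G₂` on the adjoint module `𝔤₂ = 𝔰𝔩₃ ⊕ V ⊕ V*` (owner: helper87).
-/

set_option autoImplicit false

namespace Cfsg.Agent.G2Singer

open Cfsg.Lie Matrix

/-- The coordinates of the adjoint module of `G₂`. -/
abbrev I : Type := Fin 2 ⊕ Fin 12

/-- Position of a root in `𝔰𝔩₃ ⊕ V ⊕ V*`. -/
def kind : Fin 12 → (Fin 3 × Fin 3) ⊕ (Fin 3 ⊕ Fin 3) :=
  ![.inl (2, 0), .inl (2, 1), .inr (.inl 2), .inr (.inr 0), .inr (.inr 1), .inl (1, 0),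
    .inl (0, 1), .inr (.inl 1), .inr (.inl 0), .inr (.inr 2), .inl (1, 2), .inl (0, 2)]

variable (L : Type*) [CommRing L]

/-- Basis matrix of a coordinate. -/
def emb : I → Matrix (Fin 3) (Fin 3) L :=
  Sum.elim ![Matrix.diagonal ![-1, 2, -1], Matrix.diagonal ![1, -1, 0]]
    fun s => match kind s with
      | .inl (i, j) => Matrix.single i j 1
      | .inr _ => 0

/-- Projection to `V`. -/
def prV : Matrix (Fin 3) I L :=
  Matrix.of fun i => Sum.elim (fun _ => 0) fun s => if kind s = .inr (.inl i) then 1 else 0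

/-- Projection to `V*`. -/
def prW : Matrix (Fin 3) I L :=
  Matrix.of fun i => Sum.elim (fun _ => 0) fun s => if kind s = .inr (.inr i) then 1 else 0

variable {L}

/-- A coordinate, read off from the three components of an image. -/
def rowVal (a : I) (Y : Matrix (Fin 3) (Fin 3) L) (v w : Fin 3 → L) : L :=
  match a with
  | .inl i => ![-Y 2 2, Y 0 0 - Y 2 2] i
  | .inr s => match kind s with
    | .inl (i, j) => Y i j
    | .inr (.inl i) => v i
    | .inr (.inr i) => w i

theorem rowVal_add (a : I) (Y Y' : Matrix (Fin 3) (Fin 3) L) (v v' w w' : Fin 3 → L) :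
    rowVal a (Y + Y') (v + v') (w + w') = rowVal a Y v w + rowVal a Y' v' w' := by
  rcases a with i | s
  · fin_cases i <;> simp [rowVal] <;> ring
  · rcases hs : kind s with ⟨i, j⟩ | i | i <;> simp [rowVal, hs]

theorem rowVal_smul (c : L) (a : I) (Y : Matrix (Fin 3) (Fin 3) L) (v w : Fin 3 → L) :
    rowVal a (c • Y) (c • v) (c • w) = c * rowVal a Y v w := by
  rcases a with i | s
  · fin_cases i <;> simp [rowVal] <;> ring
  · rcases hs : kind s with ⟨i, j⟩ | i | i <;> simp [rowVal, hs]

theorem rowVal_sum {ι : Type*} (t : Finset ι) (a : I) (Y : ι → Matrix (Fin 3) (Fin 3) L)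
    (v w : ι → Fin 3 → L) :
    rowVal a (∑ c ∈ t, Y c) (∑ c ∈ t, v c) (∑ c ∈ t, w c) = ∑ c ∈ t, rowVal a (Y c) (v c) (w c) := by
  induction t using Finset.cons_induction with
  | empty => simpa using rowVal_smul 0 a (0 : Matrix (Fin 3) (Fin 3) L) 0 0
  | cons c t hc ih => rw [Finset.sum_cons, Finset.sum_cons, Finset.sum_cons, Finset.sum_cons, rowVal_add, ih]

theorem rowVal_map {M : Type*} [CommRing M] (f : L →+* M) (a : I) (Y : Matrix (Fin 3) (Fin 3) L)
    (v w : Fin 3 → L) : f (rowVal a Y v w) = rowVal a (Y.map f) (f ∘ v) (f ∘ w) := by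
  rcases a with i | s
  · fin_cases i <;> simp [rowVal]
  · rcases hs : kind s with ⟨i, j⟩ | i | i <;> simp [rowVal, hs]

/-- The matrix of the action of `g`, given with its inverse `h`. -/
def phiMat (g h : Matrix (Fin 3) (Fin 3) L) : Matrix I I L :=
  Matrix.of fun a b =>
    rowVal a (g * emb L b * h) (fun i => (g * prV L) i b) (fun i => (hᵀ * prW L) i b)

theorem prV_mul_phiMat (g h : Matrix (Fin 3) (Fin 3) L) : prV L * phiMat g h = g * prV L := by
  ext i b
  rw [Matrix.mul_apply, Fintype.sum_sum_type]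
  fin_cases i <;> simp [prV, phiMat, rowVal, kind, Fin.sum_univ_succ]

theorem prW_mul_phiMat (g h : Matrix (Fin 3) (Fin 3) L) : prW L * phiMat g h = hᵀ * prW L := by
  ext i b
  rw [Matrix.mul_apply, Fintype.sum_sum_type]
  fin_cases i <;> simp [prW, phiMat, rowVal, kind, Fin.sum_univ_succ]

theorem trace_emb (b : I) : (emb L b).trace = 0 := by
  rcases b with i | s
  · fin_cases i <;> simp [emb, Fin.sum_univ_three] <;> ring
  · fin_cases s <;> simp [emb, kind, Matrix.trace_fin_three, Matrix.single]

theorem sum_phiMat_smul_emb (g h : Matrix (Fin 3) (Fin 3) L) (hg : h * g = 1) (b : I) :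
    ∑ c, phiMat g h c b • emb L c = g * emb L b * h := by
  have htr : (g * emb L b * h).trace = 0 := by
    rw [Matrix.trace_mul_cycle, hg, one_mul, trace_emb]
  rw [Matrix.trace_fin_three] at htr
  simp only [phiMat, Matrix.of_apply]
  generalize g * emb L b * h = Y at htr ⊢
  generalize (fun i => (g * prV L) i b) = v
  generalize (fun i => (hᵀ * prW L) i b) = w
  rw [Fintype.sum_sum_type]
  ext i j
  fin_cases i <;> fin_cases j <;>
    simp [rowVal, emb, kind, Fin.sum_univ_succ, Matrix.single] <;>
    linear_combination -htr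

theorem phiMat_mul {g h g' h' : Matrix (Fin 3) (Fin 3) L} (hg : h' * g' = 1) :
    phiMat g h * phiMat g' h' = phiMat (g * g') (h' * h) := by
  ext a b
  rw [Matrix.mul_apply]
  set P := phiMat g' h' with hP
  calc ∑ c, phiMat g h a c * P c b
      = ∑ c, rowVal a (P c b • (g * emb L c * h)) (P c b • fun i => (g * prV L) i c)
          (P c b • fun i => (hᵀ * prW L) i c) := by
        exact Finset.sum_congr rfl fun c _ => by rw [rowVal_smul, mul_comm]; rfl
    _ = rowVal a (∑ c, P c b • (g * emb L c * h)) (∑ c, P c b • fun i => (g * prV L) i c)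
          (∑ c, P c b • fun i => (hᵀ * prW L) i c) := (rowVal_sum _ a _ _ _).symm
    _ = _ := by
        show _ = rowVal a _ _ _
        congr 1
        · rw [hP]
          calc ∑ c, phiMat g' h' c b • (g * emb L c * h)
              = g * (∑ c, phiMat g' h' c b • emb L c) * h := by
                rw [Finset.mul_sum, Finset.sum_mul]
                simp only [mul_smul_comm, smul_mul_assoc]
            _ = g * (g' * emb L b * h') * h := by rw [sum_phiMat_smul_emb g' h' hg b]
            _ = _ := by simp [mul_assoc]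
        · funext i
          rw [Finset.sum_apply, show (g * g') * prV L = g * prV L * P by
            rw [Matrix.mul_assoc, Matrix.mul_assoc, hP, prV_mul_phiMat], Matrix.mul_apply]
          exact Finset.sum_congr rfl fun c _ => mul_comm _ _
        · funext i
          rw [Finset.sum_apply, show (h' * h)ᵀ * prW L = hᵀ * prW L * P by
            rw [Matrix.transpose_mul, Matrix.mul_assoc, Matrix.mul_assoc, hP, prW_mul_phiMat],
            Matrix.mul_apply]
          exact Finset.sum_congr rfl fun c _ => mul_comm _ _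

theorem map_emb {M : Type*} [CommRing M] (f : L →+* M) (b : I) : (emb L b).map f = emb M b := by
  rcases b with i | s
  · fin_cases i <;> ext x y <;> fin_cases x <;> fin_cases y <;> simp [emb, map_ofNat]
  · ext x y
    rcases hs : kind s with ⟨i, j⟩ | i <;> simp [emb, hs, Matrix.single, apply_ite f]

theorem map_prV {M : Type*} [CommRing M] (f : L →+* M) : (prV L).map f = prV M := by
  ext i (c | c) <;> simp [prV, apply_ite f]

theorem map_prW {M : Type*} [CommRing M] (f : L →+* M) : (prW L).map f = prW M := by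
  ext i (c | c) <;> simp [prW, apply_ite f]

theorem phiMat_map {M : Type*} [CommRing M] (f : L →+* M) (g h : Matrix (Fin 3) (Fin 3) L) :
    (phiMat g h).map f = phiMat (g.map f) (h.map f) := by
  ext a b
  simp only [phiMat, Matrix.map_apply, Matrix.of_apply, rowVal_map]
  rw [← map_emb f b, ← map_prV f, ← map_prW f, ← Matrix.map_mul, ← Matrix.map_mul,
    ← Matrix.map_mul, ← Matrix.transpose_map, ← Matrix.map_mul]
  rfl

theorem phiMat_one_int : phiMat (1 : Matrix (Fin 3) (Fin 3) ℤ) 1 = 1 := by decide +kernel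

theorem phiMat_one : phiMat (1 : Matrix (Fin 3) (Fin 3) L) 1 = 1 := by
  have h := congrArg (fun M => M.map (Int.castRingHom L)) phiMat_one_int
  rw [phiMat_map, Matrix.map_one _ (map_zero _) (map_one _),
    Matrix.map_one _ (map_zero _) (map_one _)] at h
  exact h

/-- The homomorphism `SL₃ → GL` of the adjoint module of `G₂`. -/
noncomputable def phi (F : Type*) [Field F] :
    SpecialLinearGroup (Fin 3) F →* GL chevG2.Idx F :=
  MonoidHom.mk'
    (fun g => (⟨phiMat g.1 g⁻¹.1, phiMat g⁻¹.1 g.1,
      by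
        rw [phiMat_mul (by rw [← Linear.val_mul, mul_inv_cancel]; rfl),
          ← Linear.val_mul, mul_inv_cancel]
        exact phiMat_one,
      by
        rw [phiMat_mul (by rw [← Linear.val_mul, inv_mul_cancel]; rfl),
          ← Linear.val_mul, inv_mul_cancel]
        exact phiMat_one⟩ : (Matrix I I F)ˣ))
    fun g g' => Units.ext (by
      show phiMat (g * g').1 (g * g')⁻¹.1 = phiMat g.1 g⁻¹.1 * phiMat g'.1 g'⁻¹.1
      rw [phiMat_mul (by rw [← Linear.val_mul, inv_mul_cancel]; rfl), _root_.mul_inv_rev]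
      rfl)

theorem val_phi {F : Type*} [Field F] (g : SpecialLinearGroup (Fin 3) F) :
    (phi F g : Matrix chevG2.Idx chevG2.Idx F) = phiMat g.1 g⁻¹.1 := rfl

/-- The entries of `x_r(t)` as lists of terms `(k, c)` standing for `c t ^ k`. -/
def xP (r : Fin 12) : I → I → List (ℕ × ℤ)
  | .inl i', .inl i => if i' = i then [(0, 1)] else []
  | .inr u, .inl i => if u = r then [(1, -(chevG2.cartanSR.getD i.val #[]).getD r.val 0)] else []
  | .inl i, .inr s =>
    if s = r then [] else if s.val = chevG2.negIdx.getD r.val 0 then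
      [(1, (chevG2.coroot.getD r.val #[]).getD i.val 0)] else []
  | .inr u, .inr s =>
    if s = r then (if u = r then [(0, 1)] else []) else
      if s.val = chevG2.negIdx.getD r.val 0 then
        (if u = s then [(0, 1)] else if u = r then [(2, -1)] else [])
      else (if u = s then [(0, 1)] else []) ++ chevG2.chainCoeff r.val s.val u.val

theorem xMat_eq_xP {F : Type*} [Field F] (r : Fin 12) (t : F) (a b : I) :
    chevG2.xMat F r t a b = ((xP r a b).map fun km => ((km.2 : ℤ) : F) * t ^ km.1).sum := by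
  rcases a with i' | u <;> rcases b with i | s <;>
    simp only [xP] <;> unfold ChevalleyDatum.xMat <;>
    erw [Matrix.of_apply] <;> dsimp only <;> split_ifs <;>
    first
      | exact absurd rfl ‹¬_›
      | contradiction
      | simp [-Array.getD_eq_getD_getElem?]
      | (subst_vars; contradiction)

/-- The coefficient of `t ^ k`. -/
def coeffP (l : List (ℕ × ℤ)) (k : ℕ) : ℤ := ((l.filter fun km => km.1 = k).map Prod.snd).sum

theorem sum_terms {F : Type*} [Field F] (l : List (ℕ × ℤ)) (hl : ∀ km ∈ l, km.1 ≤ 2) (t : F) :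
    (l.map fun km => ((km.2 : ℤ) : F) * t ^ km.1).sum =
      (coeffP l 0 : F) + (coeffP l 1 : F) * t + (coeffP l 2 : F) * t ^ 2 := by
  induction l with
  | nil => simp [coeffP]
  | cons km l ih =>
    obtain ⟨k, c⟩ := km
    rw [List.map_cons, List.sum_cons, ih fun x hx => hl x (List.mem_cons_of_mem _ hx)]
    have hk : k ≤ 2 := hl (k, c) List.mem_cons_self
    interval_cases k <;> simp [coeffP] <;> ring

/-- The long root of a pair of indices. -/
def longRoot : Fin 3 → Fin 3 → Fin 12 := ![![6, 6, 11], ![5, 5, 10], ![0, 1, 0]]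

set_option maxRecDepth 100000 in
set_option maxHeartbeats 4000000 in
theorem transv_table : ∀ i j : Fin 3, i ≠ j → ∀ a b : I,
    let E : Matrix (Fin 3) (Fin 3) ℤ := Matrix.single i j 1
    (∀ km ∈ xP (longRoot i j) a b, km.1 ≤ 2) ∧
    coeffP (xP (longRoot i j) a b) 0 =
      rowVal a (emb ℤ b) (fun k => prV ℤ k b) (fun k => prW ℤ k b) ∧
    coeffP (xP (longRoot i j) a b) 1 =
      rowVal a (E * emb ℤ b - emb ℤ b * E) (fun k => (E * prV ℤ) k b) (fun k => -(Eᵀ * prW ℤ) k b) ∧
    coeffP (xP (longRoot i j) a b) 2 = rowVal a (-(E * emb ℤ b * E)) 0 0 := by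
  decide +kernel

theorem phi_transvection {F : Type*} [Field F] {i j : Fin 3} (h : i ≠ j) (t : F) :
    (phi F (SpecialLinearGroup.transvection h t) : Matrix chevG2.Idx chevG2.Idx F) =
      chevG2.xMat F (longRoot i j) t := by
  rw [val_phi, SpecialLinearGroup.transvection_inv h t, SpecialLinearGroup.transvection_coe,
    SpecialLinearGroup.transvection_coe]
  refine Matrix.ext fun (a b : I) => ?_
  obtain ⟨hd, h0, h1, h2⟩ := transv_table i j h a b
  rw [xMat_eq_xP, sum_terms _ hd, h0, h1, h2]
  have hc : ∀ n : ℤ, (n : F) = Int.castRingHom F n := fun _ => rfl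
  simp only [hc, rowVal_map]
  set E : Matrix (Fin 3) (Fin 3) F := Matrix.single i j 1
  have hE : (Matrix.single i j (1 : ℤ)).map (Int.castRingHom F) = E := by
    ext x y; simp [E, Matrix.single, apply_ite (Int.cast : ℤ → F)]
  have hY1 : (Matrix.single i j (1 : ℤ) * emb ℤ b - emb ℤ b * Matrix.single i j 1).map
      (Int.castRingHom F) = E * emb F b - emb F b * E := by
    rw [Matrix.map_sub _ (map_sub _), Matrix.map_mul, Matrix.map_mul, map_emb, hE]
  have hY2 : (-(Matrix.single i j (1 : ℤ) * emb ℤ b * Matrix.single i j 1)).map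
      (Int.castRingHom F) = -(E * emb F b * E) := by
    rw [← map_emb (Int.castRingHom F), ← hE, ← Matrix.map_mul, ← Matrix.map_mul]
    ext x y; simp
  have hv1 : (Int.castRingHom F ∘ fun k => (Matrix.single i j (1 : ℤ) * prV ℤ) k b) =
      fun k => (E * prV F) k b := by
    funext k; rw [← hE, ← map_prV (Int.castRingHom F), ← Matrix.map_mul]; rfl
  have hw1 : (Int.castRingHom F ∘ fun k => -((Matrix.single i j (1 : ℤ))ᵀ * prW ℤ) k b) =
      fun k => -(Eᵀ * prW F) k b := by
    funext k
    rw [← hE, ← map_prW (Int.castRingHom F), ← Matrix.transpose_map, ← Matrix.map_mul]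
    simp
  have hv0 : (Int.castRingHom F ∘ fun k => prV ℤ k b) = fun k => prV F k b := by
    rw [← map_prV (Int.castRingHom F)]; rfl
  have hw0 : (Int.castRingHom F ∘ fun k => prW ℤ k b) = fun k => prW F k b := by
    rw [← map_prW (Int.castRingHom F)]; rfl
  have hz : (Int.castRingHom F ∘ (0 : Fin 3 → ℤ)) = 0 := by funext k; simp
  rw [map_emb, hY1, hY2, hv1, hw1, hv0, hw0, hz, mul_comm _ t, mul_comm _ (t ^ 2), ← rowVal_smul,
    ← rowVal_smul, ← rowVal_add, ← rowVal_add]
  have e1 : Matrix.single i j t = t • E := by ext x y; simp [E, Matrix.single]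
  have e2 : Matrix.single i j (-t) = -(t • E) := by
    rw [← e1]; ext x y; simp only [Matrix.single, Matrix.of_apply, Matrix.neg_apply]; split_ifs <;> simp
  simp only [phiMat, Matrix.of_apply, e1, e2]
  congr 1
  · simp only [add_mul, one_mul, mul_add, mul_one, smul_mul_assoc, mul_neg, mul_smul_comm, smul_sub,
      smul_neg, sq, mul_smul]
    module
  · funext k
    simp [Matrix.add_mul]
  · funext k
    simp [Matrix.add_mul, Matrix.transpose_add, Matrix.transpose_smul]

theorem phi_mem_group {F : Type*} [Field F] (g : SpecialLinearGroup (Fin 3) F) :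
    phi F g ∈ chevG2.group F := by
  refine Linear.transvection_induction (fun g => phi F g ∈ chevG2.group F) (fun i j h c => ?_)
    (fun A B hA hB => by rw [map_mul]; exact mul_mem hA hB) g
  exact Subgroup.subset_closure ⟨longRoot i j, c, phi_transvection h c⟩

end Cfsg.Agent.G2Singer
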